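import Cfsg.Prelude.Def_Transfer
import Cfsg.Prelude.Def_Solvable
import Cfsg.Agent.Helper63.N15Defs

set_option autoImplicit false

namespace Cfsg.Agent.Helper26.N15

open Cfsg.Agent.Helper63.N15

section slevel

variable {S : Type*} [Group S] [Finite S] {E : Type*} [AddCommGroup E] [Module (ZMod 3) E]
  [Finite E]

/-- P3a. Coprime decomposition `E = [E, R] ⊕ C_E(R)` for a `3'`-subgroup `R`:
`F₀ = span {ρ r v - v}`, `F₁ = C_E(R)`; `e = |R|⁻¹ ∑_{r ∈ R} ρ r` is an idempotent with image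
`F₁` and kernel `F₀` (`v - e v = |R|⁻¹ ∑ (v - ρ r v)`); the last clause says `[F₀, R] = F₀`
(for `x ∈ F₀`, `x = x - e x = |R|⁻¹ ∑ (x - ρ r x)`). -/
theorem p3a (ρ : Representation (ZMod 3) S E) (R : Subgroup S)
    (hR3 : (Nat.card ↥R).Coprime 3) :
    ∃ F₀ F₁ : Submodule (ZMod 3) E, F₀ ⊓ F₁ = ⊥ ∧ F₀ ⊔ F₁ = ⊤ ∧
      (∀ v : E, v ∈ F₁ ↔ ∀ r ∈ R, ρ r v = v) ∧
      (∀ r ∈ R, ∀ v : E, ρ r v - v ∈ F₀) ∧
      (∀ N : Submodule (ZMod 3) E, (∀ r ∈ R, ∀ v : E, ρ r v - v ∈ N) → F₀ ≤ N) ∧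
      (∀ N : Submodule (ZMod 3) E, (∀ r ∈ R, ∀ x ∈ F₀, ρ r x - x ∈ N) → F₀ ≤ N) := by
  classical
  have : Fintype ↥R := Fintype.ofFinite _
  obtain ⟨c, hc⟩ := ((ZMod.isUnit_iff_coprime (Nat.card ↥R) 3).mpr hR3).exists_left_inv
  let e : E →ₗ[ZMod 3] E := c • ∑ r : ↥R, ρ (r : S)
  have he : ∀ v, e v = c • ∑ r : ↥R, ρ (r : S) v := fun v => by
    simp [e, LinearMap.sum_apply]
  have hcard : ∀ v : E, c • ∑ _r : ↥R, v = v := by
    intro v
    rw [Finset.sum_const, Finset.card_univ, ← Nat.card_eq_fintype_card,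
      ← Nat.cast_smul_eq_nsmul (ZMod 3), smul_smul, hc, one_smul]
  let F₀ : Submodule (ZMod 3) E := Submodule.span (ZMod 3) {w | ∃ r ∈ R, ∃ v, w = ρ r v - v}
  let F₁ : Submodule (ZMod 3) E :=
    { carrier := {v | ∀ r ∈ R, ρ r v = v}
      add_mem' := fun {a b} ha hb r hr => by rw [map_add, ha r hr, hb r hr]
      zero_mem' := fun r _ => map_zero _
      smul_mem' := fun k v hv r hr => by rw [map_smul, hv r hr] }
  have hgen : ∀ r ∈ R, ∀ v : E, ρ r v - v ∈ F₀ :=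
    fun r hr v => Submodule.subset_span ⟨r, hr, v, rfl⟩
  have hfix : ∀ v, e v ∈ F₁ := by
    intro v s hs
    rw [he, map_smul, map_sum]
    congr 1
    have h1 : ∀ r : ↥R, ρ s (ρ (r : S) v) = ρ ((⟨s, hs⟩ * r : ↥R) : S) v := by
      intro r; rw [Subgroup.coe_mul, map_mul]; rfl
    simp_rw [h1]
    exact Fintype.sum_equiv (Equiv.mulLeft (⟨s, hs⟩ : ↥R)) _ _ (fun r => rfl)
  have hefix : ∀ x ∈ F₁, e x = x := by
    intro x hx
    rw [he]
    have h1 : ∀ r : ↥R, ρ (r : S) x = x := fun r => hx r r.2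
    simp_rw [h1]
    exact hcard x
  have havg : ∀ v, v - e v = c • ∑ r : ↥R, (v - ρ (r : S) v) := by
    intro v
    rw [Finset.sum_sub_distrib, smul_sub, hcard, he]
  have hkill : ∀ x ∈ F₀, e x = 0 := by
    intro x hx
    refine Submodule.span_induction ?_ ?_ ?_ ?_ hx
    · rintro _ ⟨r, hr, v, rfl⟩
      rw [map_sub, he, he, ← smul_sub, ← Finset.sum_sub_distrib]
      have h2 : ∑ s : ↥R, (ρ (s : S) (ρ r v) - ρ (s : S) v) = 0 := by
        rw [Finset.sum_sub_distrib, sub_eq_zero]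
        have h1 : ∀ s : ↥R, ρ (s : S) (ρ r v) = ρ ((s * ⟨r, hr⟩ : ↥R) : S) v := by
          intro s; rw [Subgroup.coe_mul, map_mul]; rfl
        simp_rw [h1]
        exact Fintype.sum_equiv (Equiv.mulRight (⟨r, hr⟩ : ↥R)) _ _ (fun s => rfl)
      rw [h2, smul_zero]
    · exact map_zero _
    · intro x y _ _ hx hy; rw [map_add, hx, hy, add_zero]
    · intro k x _ hx; rw [map_smul, hx, smul_zero]
  refine ⟨F₀, F₁, ?_, ?_, ?_, hgen, ?_, ?_⟩
  · rw [eq_bot_iff]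
    rintro x ⟨hx0, hx1⟩
    have h1 := hefix x hx1
    have h0 := hkill x hx0
    rw [h0] at h1
    exact (Submodule.mem_bot _).mpr h1.symm
  · rw [eq_top_iff]
    intro v _
    have hv : v = (v - e v) + e v := by abel
    rw [hv]
    refine Submodule.add_mem_sup ?_ (hfix v)
    rw [havg]
    refine Submodule.smul_mem _ _ (Submodule.sum_mem _ fun r _ => ?_)
    have h3 := hgen r r.2 v
    have h2 : v - ρ (r : S) v = -(ρ (r : S) v - v) := by abel
    rw [h2]; exact Submodule.neg_mem _ h3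
  · intro v; exact Iff.rfl
  · intro N hN
    exact Submodule.span_le.mpr (by rintro _ ⟨r, hr, v, rfl⟩; exact hN r hr v)
  · intro N hN x hx
    have h1 : x = x - e x := by rw [hkill x hx, sub_zero]
    rw [h1, havg]
    refine Submodule.smul_mem _ _ (Submodule.sum_mem _ fun r _ => ?_)
    have h3 := hN r r.2 x hx
    have h2 : x - ρ (r : S) x = -(ρ (r : S) x - x) := by abel
    rw [h2]; exact Submodule.neg_mem _ h3

end slevel

end Cfsg.Agent.Helper26.N15
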